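import Cfsg.Agent.H659.Rs.Box
import Cfsg.Agent.LieClassical.OrthFinite

/-!
# S3691, `PSp_6(2^f)` and `PSp_8(2^f)`: more boxes (helper659)

* `Over3a`, `Over3b`, `Over4a`, `Over4b` : the maximal subgroups of `Sp_6(q)`, `Sp_8(q)` with the large primes (S5805, S5806, S5823, S5824)
* `preG e X` : the preimage of `X ∩ T` in `spGL m F`;  `Pr` : a pair of subgroups of `spGL m F`
* `BoxPair` : the pair of an exact factorization
* `BoxSize` : the bounds for `f`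
* `BoxOnly` : a primitive prime divides one factor only
-/

set_option autoImplicit false

namespace Cfsg.Agent.H659.Rs

open Cfsg Cfsg.Geo Module Cfsg.Agent.H454.Reg Cfsg.Agent.H925.Rs
open Cfsg.Agent.LieClassical.OrthFinite (glEquiv)
open scoped MatrixGroups Matrix

universe u

/-- the maximal overgroups of `r_6` in `Sp_6(q)` -/
def Over3a : Prop :=
  ∀ {F : Type} [Field F] [Fintype F] {f r : ℕ}, 4 ≤ f → Fintype.card F = 2 ^ f → Pm (6 * f) r →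
    ∀ H : Subgroup (GL (Fin 3 ⊕ Fin 3) F), IsMaximalIn (spGL 3 F) H → r ∣ Nat.card H →
    (∃ K : Subalgebra F (Matrix (Fin 3 ⊕ Fin 3) (Fin 3 ⊕ Fin 3) F), IsFieldSubalgebra 3 K ∧
      IsSelfAdjointFor (sympForm 3 F) K ∧ (∀ k ∈ K, ∀ v, sympForm 3 F (Matrix.mulVec k v) v = 0) ∧ H ≤ subalgebraNormalizer K) ∨
    (∃ Q : (Fin 3 ⊕ Fin 3 → F) → F, IsNondegenerateQuadraticForm Q ∧ (∀ u v, QuadraticMap.polar Q u v = sympForm 3 F u v) ∧
      ¬ IsPlusTypeOn Q ⊤ ∧ H ≤ isometryGroup F Q) ∨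
    (∃ P, IsResidualCore H P ∧ Nonempty ((P ⧸ (scalars (Fin 3 ⊕ Fin 3) F).subgroupOf P) ≃* Lie.G2 F))

/-- the maximal overgroups of `r_4` in `Sp_6(q)` -/
def Over3b : Prop :=
  ∀ {F : Type} [Field F] [Fintype F] {f r : ℕ}, 4 ≤ f → Fintype.card F = 2 ^ f → Pm (4 * f) r →
    ∀ H : Subgroup (GL (Fin 3 ⊕ Fin 3) F), IsMaximalIn (spGL 3 F) H → r ∣ Nat.card H →
    (∃ v : Fin 3 ⊕ Fin 3 → F, v ≠ 0 ∧ H ≤ subspaceStabilizer (Submodule.span F {v})) ∨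
    (∃ W : Submodule F (Fin 3 ⊕ Fin 3 → F), finrank F W = 2 ∧ IsNondegenerateOn (sympForm 3 F) W ∧ H ≤ subspaceStabilizer W) ∨
    (∃ Q : (Fin 3 ⊕ Fin 3 → F) → F, IsNondegenerateQuadraticForm Q ∧ (∀ u v, QuadraticMap.polar Q u v = sympForm 3 F u v) ∧
      H ≤ isometryGroup F Q)

/-- the maximal overgroups of `r_8` in `Sp_8(q)` -/
def Over4a : Prop :=
  ∀ {F : Type} [Field F] [Fintype F] {f r : ℕ}, 4 ≤ f → Fintype.card F = 2 ^ f → Pm (8 * f) r →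
    ∀ H : Subgroup (GL (Fin 4 ⊕ Fin 4) F), IsMaximalIn (spGL 4 F) H → r ∣ Nat.card H →
    (∃ K : Subalgebra F (Matrix (Fin 4 ⊕ Fin 4) (Fin 4 ⊕ Fin 4) F), IsFieldSubalgebra 2 K ∧
      IsSelfAdjointFor (sympForm 4 F) K ∧ (∀ k ∈ K, ∀ v, sympForm 4 F (Matrix.mulVec k v) v = 0) ∧ H ≤ subalgebraNormalizer K) ∨
    (∃ Q : (Fin 4 ⊕ Fin 4 → F) → F, IsNondegenerateQuadraticForm Q ∧ (∀ u v, QuadraticMap.polar Q u v = sympForm 4 F u v) ∧
      ¬ IsPlusTypeOn Q ⊤ ∧ H ≤ isometryGroup F Q)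

/-- the maximal overgroups of `r_6` and `r_3` in `Sp_8(q)` -/
def Over4b : Prop :=
  ∀ {F : Type} [Field F] [Fintype F] {f r s : ℕ}, 4 ≤ f → Fintype.card F = 2 ^ f → Pm (6 * f) r → Pm (3 * f) s →
    ∀ H : Subgroup (GL (Fin 4 ⊕ Fin 4) F), IsMaximalIn (spGL 4 F) H → r ∣ Nat.card H → s ∣ Nat.card H →
    (∃ v : Fin 4 ⊕ Fin 4 → F, v ≠ 0 ∧ H ≤ subspaceStabilizer (Submodule.span F {v})) ∨
    (∃ W : Submodule F (Fin 4 ⊕ Fin 4 → F), finrank F W = 2 ∧ IsNondegenerateOn (sympForm 4 F) W ∧ H ≤ subspaceStabilizer W) ∨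
    (∃ Q : (Fin 4 ⊕ Fin 4 → F) → F, IsNondegenerateQuadraticForm Q ∧ (∀ u v, QuadraticMap.polar Q u v = sympForm 4 F u v) ∧
      H ≤ isometryGroup F Q)

/-- the preimage of `X ∩ T` in `spGL m F` -/
noncomputable def preG {G : Type*} [Group G] {T : Subgroup G} {F : Type} [Field F] {m : ℕ} (e : T ≃* PSp m F) (X : Subgroup G) :
    Subgroup (GL (Fin m ⊕ Fin m) F) :=
  (preS e X).comap (glEquiv (Fin m ⊕ Fin m) F).toMonoidHom

/-- a pair of subgroups of `spGL m F`, `|F| = 2 ^ f` -/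
structure Pr (m f : ℕ) {F : Type} [Field F] [Fintype F] (A C : Subgroup (GL (Fin m ⊕ Fin m) F)) : Prop where
  le1 : A ≤ spGL m F
  le2 : C ≤ spGL m F
  ne1 : A ≠ spGL m F
  ne2 : C ≠ spGL m F
  card : ∃ e, e ∣ f ∧ Nat.card A * Nat.card C * e = Nat.card (spGL m F)
  conj : ∀ x ∈ A, ∀ g ∈ spGL m F, g * x * g⁻¹ ∈ C → x = 1

/-- the pair of an exact factorization -/
def BoxPair : Prop :=
  ∀ {G : Type u} [Group G] [Finite G] {F : Type} [Field F] [Fintype F] {m f : ℕ}, 3 ≤ m → 1 ≤ f → Fintype.card F = 2 ^ f →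
    ∀ (T X Y : Subgroup G) (e : T ≃* PSp m F), Fac T X Y → Pr m f (preG e X) (preG e Y)

/-- the bounds for `f` -/
def BoxSize : Prop :=
  ∀ {G : Type u} [Group G] [Finite G] {F : Type} [Field F] [Fintype F] {m f : ℕ}, Fintype.card F = 2 ^ f →
    ∀ (T H B : Subgroup G), Ex T H B → Nonempty (T ≃* PSp m F) → (m = 3 → 7 ≤ f) ∧ (m = 4 → 4 ≤ f)

/-- a primitive prime of order `k > m`, `k` even, divides exactly one factor -/
def BoxOnly : Prop :=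
  ∀ {F : Type} [Field F] [Fintype F] {m f k r : ℕ}, 3 ≤ m → 1 ≤ f → Fintype.card F = 2 ^ f → Even k → m < k → k ≤ 2 * m →
    Pm (k * f) r → ∀ A C : Subgroup (GL (Fin m ⊕ Fin m) F), Pr m f A C →
    (r ∣ Nat.card A ∧ ¬ r ∣ Nat.card C) ∨ (r ∣ Nat.card C ∧ ¬ r ∣ Nat.card A)

end Cfsg.Agent.H659.Rs
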