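import Cfsg.Agent.H925.Rs.Frame
import Cfsg.Prelude.Def_GeometricClasses
import Cfsg.Prelude.Def_G2

/-!
# S3691, `PSp_6(2^f)` and `PSp_8(2^f)`: the boxes (helper659)

`q = 2 ^ f`.  `Pm n r` : `r` is a prime and `2` has order `n` modulo `r` (a primitive prime divisor of `2 ^ n - 1`); the prime `r_k`
of the plan is `Pm (k * f) r`.  Every box is a `Prop`; a proof is a theorem `box... : Box...`.
-/

set_option autoImplicit false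

namespace Cfsg.Agent.H659.Rs

open Cfsg Cfsg.Geo Module
open scoped MatrixGroups Matrix

universe u

/-- `r` is a prime with `orderOf 2 = n` modulo `r` -/
structure Pm (n r : ℕ) : Prop where
  prime : r.Prime
  ord : orderOf ((2 : ℕ) : ZMod r) = n

/-- the exponent of 2 in the order of a group -/
noncomputable abbrev v2 {G : Type*} [Group G] (R : Subgroup G) : ℕ := (Nat.card R).factorization 2

/-- (PSL2) subgroups of `PSL_2(2^g)` with a primitive prime divisor of `2^(2g) - 1` -/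
def BoxPsl2 : Prop :=
  ∀ {S : Type} [Group S] [Finite S] {K : Type} [Field K] [Fintype K] {g r : ℕ}, 8 ≤ g → Fintype.card K = 2 ^ g →
    Nonempty (S ≃* Matrix.ProjectiveSpecialLinearGroup (Fin 2) K) → Pm (2 * g) r → ∀ R : Subgroup S, r ∣ Nat.card R →
    R = ⊤ ∨ Nat.card R ∣ 2 * (2 ^ g + 1)

/-- (G2) subgroups of `G_2(2^f)` with `r_6` and `r_3` -/
def BoxG2 : Prop :=
  ∀ {S : Type} [Group S] [Finite S] {F : Type} [Field F] [Fintype F] {f r s : ℕ}, 4 ≤ f → Fintype.card F = 2 ^ f →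
    Nonempty (S ≃* Lie.G2 F) → Pm (6 * f) r → Pm (3 * f) s → ∀ R : Subgroup S, r ∣ Nat.card R → s ∣ Nat.card R → R = ⊤

/-- `L` is one of the two types of subgroups `SL_2(q^2)` of `Sp_4(q)`; the involutions of `L` have rank 2 -/
structure IsL {F : Type} [Field F] [Fintype F] (L : Subgroup (GL (Fin 2 ⊕ Fin 2) F)) : Prop where
  le : L ≤ spGL 2 F
  iso : ∃ (K : Type) (_ : Field K) (_ : Fintype K), Fintype.card K = Fintype.card F ^ 2 ∧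
    Nonempty (L ≃* Matrix.ProjectiveSpecialLinearGroup (Fin 2) K)
  rank : ∀ x ∈ L, x * x = 1 → x ≠ 1 → ((x : Matrix (Fin 2 ⊕ Fin 2) (Fin 2 ⊕ Fin 2) F) - 1).rank = 2

/-- (Sp4) subgroups of `Sp_4(2^f)` with `r_4` -/
def BoxSp4 : Prop :=
  ∀ {F : Type} [Field F] [Fintype F] {f r : ℕ}, 4 ≤ f → Fintype.card F = 2 ^ f → Pm (4 * f) r →
    ∀ R : Subgroup (GL (Fin 2 ⊕ Fin 2) F), R ≤ spGL 2 F → r ∣ Nat.card R →
    R = spGL 2 F ∨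
    (∃ L : Subgroup (GL (Fin 2 ⊕ Fin 2) F), IsL L ∧ (∀ x ∈ R, ∀ y ∈ L, x * y * x⁻¹ ∈ L) ∧
      ∀ x ∈ R, ∀ y ∈ R, x ∉ L → y ∉ L → x⁻¹ * y ∈ L) ∨
    Nat.card R ∣ (2 ^ f) ^ 2 * ((2 ^ f) ^ 2 + 1) * (2 ^ f - 1)

/-- (Ext) the normaliser of a self-adjoint field of degree `b` in `Sp_2bk(q)` -/
def BoxExt : Prop :=
  ∀ {F : Type} [Field F] [Fintype F] {m b k : ℕ}, b.Prime → 1 ≤ k → m = b * k →
    ∀ K : Subalgebra F (Matrix (Fin m ⊕ Fin m) (Fin m ⊕ Fin m) F), IsFieldSubalgebra b K →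
    IsSelfAdjointFor (sympForm m F) K → (∀ k ∈ K, ∀ v, sympForm m F (Matrix.mulVec k v) v = 0) →
    ∀ R : Subgroup (GL (Fin m ⊕ Fin m) F), R ≤ spGL m F → R ≤ subalgebraNormalizer K →
    ∃ (E : Type) (_ : Field E) (_ : Fintype E) (R1 : Subgroup (GL (Fin k ⊕ Fin k) E)), Fintype.card E = Fintype.card F ^ b ∧
      R1 ≤ spGL k E ∧ Nat.card R ∣ b * Nat.card R1 ∧ Nat.card R1 ∣ Nat.card R

/-- (O6+) subgroups of `O_6^+(2^f)` with `r_4` -/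
def BoxO6p : Prop :=
  ∀ {F : Type} [Field F] [Fintype F] {f r s : ℕ}, 4 ≤ f → Fintype.card F = 2 ^ f → Pm (4 * f) r → Pm (3 * f) s →
    ∀ Q : (Fin 3 ⊕ Fin 3 → F) → F, IsNondegenerateQuadraticForm Q → IsPlusTypeOn Q ⊤ →
    ∀ R : Subgroup (GL (Fin 3 ⊕ Fin 3) F), R ≤ isometryGroup F Q → r ∣ Nat.card R →
    omegaGL Q ≤ R ∨ (¬ s ∣ Nat.card R ∧ (v2 R ≤ 2 * f + 2 ∨ (4 * f ≤ v2 R ∧ v2 R ≤ 4 * f + 1)))

/-- (O6-) subgroups of `O_6^-(2^f)` with `r_4` or `r_6` -/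
def BoxO6m : Prop :=
  ∀ {F : Type} [Field F] [Fintype F] {f : ℕ}, 4 ≤ f → Fintype.card F = 2 ^ f →
    ∀ Q : (Fin 3 ⊕ Fin 3 → F) → F, IsNondegenerateQuadraticForm Q → ¬ IsPlusTypeOn Q ⊤ →
    ∀ R : Subgroup (GL (Fin 3 ⊕ Fin 3) F), R ≤ isometryGroup F Q →
    (∀ r s, Pm (4 * f) r → Pm (6 * f) s → r ∣ Nat.card R → omegaGL Q ≤ R ∨ (¬ s ∣ Nat.card R ∧ (v2 R ≤ 2 * f + 2 ∨
      (4 * f ≤ v2 R ∧ (v2 R ≤ 4 * f + 1 ∨ Nat.card R ∣ 2 * ((2 ^ f) ^ 6 * ((2 ^ f) ^ 4 - 1) * (2 ^ f - 1))))))) ∧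
    (∀ s, Pm (6 * f) s → s ∣ Nat.card R → omegaGL Q ≤ R ∨
      Nat.card R ∣ 2 * ((2 ^ f) ^ 3 * (2 ^ f + 1) * ((2 ^ f) ^ 2 - 1) * ((2 ^ f) ^ 3 + 1)))

/-- (O8-) subgroups of `O_8^-(2^f)` -/
def BoxO8m : Prop :=
  ∀ {F : Type} [Field F] [Fintype F] {f : ℕ}, 4 ≤ f → Fintype.card F = 2 ^ f →
    ∀ Q : (Fin 4 ⊕ Fin 4 → F) → F, IsNondegenerateQuadraticForm Q → ¬ IsPlusTypeOn Q ⊤ →
    ∀ R : Subgroup (GL (Fin 4 ⊕ Fin 4) F), R ≤ isometryGroup F Q →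
    (∀ r s, Pm (8 * f) r → Pm (6 * f) s → r ∣ Nat.card R → s ∣ Nat.card R → omegaGL Q ≤ R) ∧
    (∀ r, Pm (8 * f) r → r ∣ Nat.card R → omegaGL Q ≤ R ∨ (Nat.card R ∣ 4 * ((2 ^ f) ^ 4 * ((2 ^ f) ^ 8 - 1)) ∧
      (v2 R < 4 * f → Nat.card R ∣ 16 * ((2 ^ f) ^ 4 + 1)))) ∧
    (∀ s t, Pm (6 * f) s → Pm (3 * f) t → s ∣ Nat.card R → t ∣ Nat.card R →
      omegaGL Q ≤ R ∨ v2 R ≤ 6 * f + 1 + f.factorization 2 ∨ (9 * f ≤ v2 R ∧ v2 R ≤ 9 * f + 1))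

/-- (O8+) subgroups of `O_8^+(2^f)` -/
def BoxO8p : Prop :=
  ∀ {F : Type} [Field F] [Fintype F] {f : ℕ}, 4 ≤ f → Fintype.card F = 2 ^ f →
    ∀ Q : (Fin 4 ⊕ Fin 4 → F) → F, IsNondegenerateQuadraticForm Q → IsPlusTypeOn Q ⊤ →
    ∀ R : Subgroup (GL (Fin 4 ⊕ Fin 4) F), R ≤ isometryGroup F Q →
    ∀ s t, Pm (6 * f) s → Pm (3 * f) t → s ∣ Nat.card R → t ∣ Nat.card R →
      omegaGL Q ≤ R ∨ v2 R ≤ 6 * f + 2 ∨ (9 * f ≤ v2 R ∧ v2 R ≤ 9 * f + 1)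

/-- (P1) the stabiliser of a point in `Sp_2m(q)`, `q` even -/
def BoxP1 : Prop :=
  ∀ {F : Type} [Field F] [Fintype F] {m f r : ℕ}, 3 ≤ m → 1 ≤ f → Fintype.card F = 2 ^ f → Pm ((2 * m - 2) * f) r →
    ∀ v : Fin m ⊕ Fin m → F, v ≠ 0 → ∀ C : Subgroup (GL (Fin m ⊕ Fin m) F), C ≤ spGL m F →
    C ≤ subspaceStabilizer (Submodule.span F {v}) → r ∣ Nat.card C →
    ∃ (C1 : Subgroup (GL (Fin (m - 1) ⊕ Fin (m - 1)) F)) (a t : ℕ), C1 ≤ spGL (m - 1) F ∧ Nat.card C = a * t * Nat.card C1 ∧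
      t ∣ 2 ^ f - 1 ∧ (∃ i, a = 2 ^ i) ∧ (a ≤ 2 ^ f ∨ (2 ^ f) ^ (2 * m - 2) ≤ a)

/-- (N2) the stabiliser of a nondegenerate 2-space in `Sp_2m(q)` -/
def BoxN2 : Prop :=
  ∀ {F : Type} [Field F] [Fintype F] {m : ℕ}, 3 ≤ m →
    ∀ W : Submodule F (Fin m ⊕ Fin m → F), finrank F W = 2 → IsNondegenerateOn (sympForm m F) W →
    ∀ C : Subgroup (GL (Fin m ⊕ Fin m) F), C ≤ spGL m F → C ≤ subspaceStabilizer W →
    ∃ (C1 : Subgroup (GL (Fin (m - 1) ⊕ Fin (m - 1)) F)) (a : ℕ), C1 ≤ spGL (m - 1) F ∧ Nat.card C = a * Nat.card C1 ∧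
      a ∣ Fintype.card F * (Fintype.card F ^ 2 - 1)

/-- (G2c) the involutions of rank 3 of `Sp_6(2^f)` are conjugate into `G_2(2^f)` -/
def BoxG2c : Prop :=
  ∀ {F : Type} [Field F] [Fintype F] {f : ℕ}, 4 ≤ f → Fintype.card F = 2 ^ f →
    ∀ M P : Subgroup (GL (Fin 3 ⊕ Fin 3) F), IsMaximalIn (spGL 3 F) M → IsResidualCore M P →
    Nonempty ((P ⧸ (scalars (Fin 3 ⊕ Fin 3) F).subgroupOf P) ≃* Lie.G2 F) →
    ∀ x ∈ spGL 3 F, x * x = 1 → ((x : Matrix (Fin 3 ⊕ Fin 3) (Fin 3 ⊕ Fin 3) F) - 1).rank = 3 →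
    ∃ g ∈ spGL 3 F, g * x * g⁻¹ ∈ M

/-- (G2y) a subgroup of order `q^3 (q^4 - 1) / e` with `r_4`, fixing a point or a nondegenerate 2-space, contains an involution of
rank 3 -/
def BoxG2y : Prop :=
  ∀ {F : Type} [Field F] [Fintype F] {f r e : ℕ}, 7 ≤ f → Fintype.card F = 2 ^ f → Pm (4 * f) r → e ∣ f →
    ∀ C : Subgroup (GL (Fin 3 ⊕ Fin 3) F), C ≤ spGL 3 F → r ∣ Nat.card C →
    Nat.card C * e = (2 ^ f) ^ 3 * ((2 ^ f) ^ 4 - 1) →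
    ∀ W : Submodule F (Fin 3 ⊕ Fin 3 → F), C ≤ subspaceStabilizer W →
    (finrank F W = 1 ∨ (finrank F W = 2 ∧ IsNondegenerateOn (sympForm 3 F) W)) →
    ∃ x ∈ C, x * x = 1 ∧ ((x : Matrix (Fin 3 ⊕ Fin 3) (Fin 3 ⊕ Fin 3) F) - 1).rank = 3

end Cfsg.Agent.H659.Rs
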