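import Cfsg.Agent.H659.Rs.Box2

/-!
# S3691, `PSp_6(2^f)` and `PSp_8(2^f)`: the cases (helper659)

* `NoOm m C` : `C` contains no `Ω_2m^±(q)`;
* `BoxG2i` : the normaliser of `G_2(q)` in `Sp_6(q)`;
* `CaseA3`, `CaseB3` : `m = 3`, `A ≤ N(K)`, `A ≥ G_2(q)`;
* `Sp6Lem` : subgroups of `Sp_6(q)` with `r_6`, `r_3`;
* `M4A` : `m = 4`, the factor with `r_8`;  `M4B` : the factor with `r_6` and `r_3`;
* `main3`, `main4`.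
-/

set_option autoImplicit false

namespace Cfsg.Agent.H659.Rs

open Cfsg Cfsg.Geo Module
open scoped MatrixGroups Matrix

/-- `C` contains no orthogonal group `Ω_2m^±(q)` -/
def NoOm (m : ℕ) {F : Type} [Field F] [Fintype F] (C : Subgroup (GL (Fin m ⊕ Fin m) F)) : Prop :=
  ∀ Q : (Fin m ⊕ Fin m → F) → F, IsNondegenerateQuadraticForm Q → (∀ u v, QuadraticMap.polar Q u v = sympForm m F u v) →
    ¬ omegaGL Q ≤ C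

/-- (G2i) the normaliser of `G_2(q)` in `Sp_6(q)` -/
def BoxG2i : Prop :=
  ∀ {F : Type} [Field F] [Fintype F] {f : ℕ}, 4 ≤ f → Fintype.card F = 2 ^ f →
    ∀ H P : Subgroup (GL (Fin 3 ⊕ Fin 3) F), H ≤ spGL 3 F → IsResidualCore H P →
    Nonempty ((P ⧸ (scalars (Fin 3 ⊕ Fin 3) F).subgroupOf P) ≃* Lie.G2 F) →
    Nat.card P = (2 ^ f) ^ 6 * ((2 ^ f) ^ 2 - 1) * ((2 ^ f) ^ 6 - 1) ∧ ∃ i, Nat.card H = i * Nat.card P ∧ i ∣ f ∧ Odd i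

/-- (B3) `m = 3`: `A` contains `G_2(q)` -/
def CaseB3 : Prop :=
  ∀ {F : Type} [Field F] [Fintype F] {f r s t : ℕ}, 7 ≤ f → Fintype.card F = 2 ^ f → Pm (6 * f) r → Pm (3 * f) s →
    Pm (4 * f) t → ∀ A C : Subgroup (GL (Fin 3 ⊕ Fin 3) F), Pr 3 f A C → NoOm 3 C →
    r ∣ Nat.card A → s ∣ Nat.card A → t ∣ Nat.card C →
    ∀ H P : Subgroup (GL (Fin 3 ⊕ Fin 3) F), IsMaximalIn (spGL 3 F) H → A ≤ H → IsResidualCore H P →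
    Nonempty ((P ⧸ (scalars (Fin 3 ⊕ Fin 3) F).subgroupOf P) ≃* Lie.G2 F) → False

/-- (A3) `m = 3`: `A` normalises a field of degree 3 -/
def CaseA3 : Prop :=
  ∀ {F : Type} [Field F] [Fintype F] {f r s t : ℕ}, 7 ≤ f → Fintype.card F = 2 ^ f → Pm (6 * f) r → Pm (3 * f) s →
    Pm (4 * f) t → ∀ A C : Subgroup (GL (Fin 3 ⊕ Fin 3) F), Pr 3 f A C → NoOm 3 C →
    r ∣ Nat.card A → s ∣ Nat.card A → t ∣ Nat.card C →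
    ∀ K : Subalgebra F (Matrix (Fin 3 ⊕ Fin 3) (Fin 3 ⊕ Fin 3) F), IsFieldSubalgebra 3 K →
    IsSelfAdjointFor (sympForm 3 F) K → (∀ k ∈ K, ∀ v, sympForm 3 F (Matrix.mulVec k v) v = 0) → A ≤ subalgebraNormalizer K →
    False

/-- subgroups of `Sp_6(q)` with `r_6` and `r_3` -/
def Sp6Lem : Prop :=
  ∀ {F : Type} [Field F] [Fintype F] {f r s : ℕ}, 4 ≤ f → Fintype.card F = 2 ^ f → Pm (6 * f) r → Pm (3 * f) s →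
    ∀ R : Subgroup (GL (Fin 3 ⊕ Fin 3) F), R ≤ spGL 3 F → r ∣ Nat.card R → s ∣ Nat.card R →
    R = spGL 3 F ∨ (3 * f ≤ v2 R ∧ v2 R ≤ 6 * f ∧ ∀ t, Pm (4 * f) t → ¬ t ∣ Nat.card R)

/-- `m = 4`: the factor with `r_8` -/
def M4A : Prop :=
  ∀ {F : Type} [Field F] [Fintype F] {f r : ℕ}, 4 ≤ f → Fintype.card F = 2 ^ f → Pm (8 * f) r →
    ∀ A : Subgroup (GL (Fin 4 ⊕ Fin 4) F), A ≤ spGL 4 F → A ≠ spGL 4 F → NoOm 4 A → r ∣ Nat.card A →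
    (∃ j, j ∣ 2 ∧ Nat.card A = j * ((2 ^ f) ^ 8 * ((2 ^ f) ^ 4 - 1) * ((2 ^ f) ^ 8 - 1))) ∨
    (Nat.card A ∣ 4 * ((2 ^ f) ^ 4 * ((2 ^ f) ^ 8 - 1)) ∧
      (v2 A < 4 * f → Nat.card A ∣ 16 * ((2 ^ f) ^ 4 + 1) ∨ Nat.card A ∣ 2 * ((2 ^ f) ^ 4 * ((2 ^ f) ^ 4 + 1) * ((2 ^ f) ^ 2 - 1))))

/-- `m = 4`: the factor with `r_6` and `r_3`; `C₁` a subgroup of `Sp_6(q)` -/
def M4B : Prop :=
  ∀ {F : Type} [Field F] [Fintype F] {f r s : ℕ}, 4 ≤ f → Fintype.card F = 2 ^ f → Pm (6 * f) r → Pm (3 * f) s →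
    ∀ C : Subgroup (GL (Fin 4 ⊕ Fin 4) F), C ≤ spGL 4 F → C ≠ spGL 4 F → NoOm 4 C → r ∣ Nat.card C → s ∣ Nat.card C →
    v2 C ≤ 6 * f + 2 + f.factorization 2 ∨ (9 * f ≤ v2 C ∧ v2 C ≤ 9 * f + 1) ∨
    (∃ (C1 : Subgroup (GL (Fin 3 ⊕ Fin 3) F)) (a : ℕ), C1 ≤ spGL 3 F ∧ Nat.card C = a * Nat.card C1 ∧
      a ∣ 2 ^ f * ((2 ^ f) ^ 2 - 1) ∧ r ∣ Nat.card C1 ∧ s ∣ Nat.card C1) ∨
    (∃ (C1 : Subgroup (GL (Fin 3 ⊕ Fin 3) F)) (a t : ℕ), C1 ≤ spGL 3 F ∧ Nat.card C = a * t * Nat.card C1 ∧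
      t ∣ 2 ^ f - 1 ∧ (∃ i, a = 2 ^ i) ∧ (a ≤ 2 ^ f ∨ (2 ^ f) ^ 6 ≤ a) ∧ r ∣ Nat.card C1 ∧ s ∣ Nat.card C1)

/-- `m = 3`, no `Pr` pair -/
def Main3 : Prop :=
  ∀ {F : Type} [Field F] [Fintype F] {f : ℕ}, 7 ≤ f → Fintype.card F = 2 ^ f →
    ∀ A C : Subgroup (GL (Fin 3 ⊕ Fin 3) F), Pr 3 f A C → NoOm 3 A → NoOm 3 C → False

/-- `m = 4`, no `Pr` pair -/
def Main4 : Prop :=
  ∀ {F : Type} [Field F] [Fintype F] {f : ℕ}, 4 ≤ f → Fintype.card F = 2 ^ f →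
    ∀ A C : Subgroup (GL (Fin 4 ⊕ Fin 4) F), Pr 4 f A C → NoOm 4 A → NoOm 4 C → False

end Cfsg.Agent.H659.Rs
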